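import Cfsg.Agent.H526.OneBlock
import Cfsg.Agent.S4521
import Cfsg.Agent.S4432
import Cfsg.Agent.Blocks.Fong
import Cfsg.Agent.Blocks.Deflate
import Cfsg.Agent.Blocks.PRegular
import Cfsg.Agent.SignalizersComponents.Components

/-!
# Groups with one 2-block: permanence

* `OneB.lift` : central extensions by 2-groups;
* `OneB.pgroup` : 2-groups;
* `OneB.sup` : central products with intersection a 2-group;
* `oneB_layer` : the layer, if the components have one block and their centres are 2-groups;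
* `OneB.of_normal_even` : from a normal subgroup `N` such that `|N : C_N(x)|` is even for every
  `x ≠ 1` of odd order.
-/

set_option autoImplicit false
open Cfsg

namespace Cfsg.Agent.H657.OneBlk

open Cfsg.Agent Cfsg.Agent.Characters.Core Cfsg.Agent.Blocks Cfsg.Agent.Blocks.LocalRing
open Cfsg.Agent.H526.OB
open Subgroup

universe u v

section

variable {G : Type u} [Group G] [Finite G] {M : Ideal AlgInt}

/-- central extensions by 2-groups -/
theorem OneB.lift (hM : IsPModular 2 M) (Z : Subgroup G) [Z.Normal] (hZ : Z ≤ center G)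
    (hZ2 : IsPGroup 2 Z) (h : OneB M (G ⧸ Z)) : OneB M G := by
  have : Fact (Nat.Prime 2) := ⟨Nat.prime_two⟩
  have hprime := Blocks.Local.isPrime_of_isPModular hM
  have hC : ∃ k : ℕ, (centralizer (Z : Set G)).index = 2 ^ k := by
    refine ⟨0, ?_⟩
    have : centralizer (Z : Set G) = ⊤ := by
      rw [eq_top_iff]
      intro g _
      rw [mem_centralizer_iff]
      intro z hz
      exact ((mem_center_iff.1 (hZ hz)) g).symm
    rw [this, index_top, pow_zero]
  obtain ⟨k1, k2⟩ := S0941.result 2 M hM Z hZ2 hC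
  intro χ
  obtain ⟨χ', θ, hθ, he⟩ := k2 (blockOf M (χ : G → ℂ)) ⟨χ, rfl⟩
  have h1 := (k1 (triv (G ⧸ Z)) χ').1 (h χ')
  rw [← he] at h1
  have h2 : SameBlock M (fun _ : G => (1 : ℂ)) (θ : G → ℂ) := h1
  have h3 : SameBlock M (χ : G → ℂ) (θ : G → ℂ) := hθ
  exact Blocks.Basic.sameBlock_trans h2 (Blocks.Basic.sameBlock_symm h3)

/-- the value at the identity -/
theorem centralChar_one {χ : G → ℂ} (hχ : IsIrrCharacter G χ) : centralChar χ 1 = 1 := by
  have h1 : χ 1 ≠ 0 := isIrr_apply_one_ne_zero hχ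
  have h2 : (centralizer ({(1 : G)} : Set G)).index = 1 := by
    rw [index_eq_one, eq_top_iff]
    intro g _
    rw [mem_centralizer_singleton_iff, mul_one, one_mul]
  rw [Basic.centralChar_def, h2, Nat.cast_one, one_mul, div_self h1]

/-- 2-groups -/
theorem OneB.pgroup (hM : IsPModular 2 M) (h : IsPGroup 2 G) : OneB M G := by
  have : Fact (Nat.Prime 2) := ⟨Nat.prime_two⟩
  have := Fintype.ofFinite G
  intro χ
  refine Blocks.PRegular.sameBlock_of_isPRegular hM (triv G).2 χ.2 fun g hg => ?_
  have h1 : g = 1 := by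
    obtain ⟨k, hk⟩ := h g
    have h2 : orderOf g ∣ 2 ^ k := orderOf_dvd_of_pow_eq_one hk
    have h3 : Nat.Coprime (orderOf g) (2 ^ k) :=
      Nat.Coprime.pow_right k ((Nat.Prime.coprime_iff_not_dvd Nat.prime_two).2 hg).symm
    exact orderOf_eq_one_iff.1 (Nat.eq_one_of_dvd_coprimes h3 dvd_rfl h2)
  rw [h1, centralChar_one χ.2, centralChar_one (Blocks.Basic.isIrrCharacter_one), sub_self]
  simpa using memLocalIdeal_sub hM (memLocalIdeal_prime hM) (memLocalIdeal_prime hM)

/-- central products -/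
theorem OneB.sup_top (hM : IsPModular 2 M) (U₁ U₂ : Subgroup G)
    (hcomm : ∀ u ∈ U₁, ∀ v ∈ U₂, u * v = v * u) (hgen : U₁ ⊔ U₂ = ⊤)
    (hZ : IsPGroup 2 ↥(U₁ ⊓ U₂)) (h₁ : OneB M U₁) (h₂ : OneB M U₂) : OneB M G := by
  have : Fact (Nat.Prime 2) := ⟨Nat.prime_two⟩
  have := Fintype.ofFinite G
  have := Fintype.ofFinite U₁
  have := Fintype.ofFinite U₂
  have hn1 : U₁.Normal := by
    rw [← normalizer_eq_top_iff, eq_top_iff, ← hgen, sup_le_iff]
    refine ⟨le_normalizer, fun v hv => ?_⟩
    rw [mem_normalizer_iff]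
    intro u
    constructor
    · intro hu
      rw [← hcomm u hu v hv, mul_inv_cancel_right]
      exact hu
    · intro hu
      have h1 := hcomm _ hu v hv
      have h2 : v * u * v⁻¹ * v = v * u := by group
      rw [h2] at h1
      have h3 : u = v * u * v⁻¹ := mul_left_cancel h1
      rw [h3]
      exact hu
  have hn2 : U₂.Normal := by
    rw [← normalizer_eq_top_iff, eq_top_iff, ← hgen, sup_le_iff]
    refine ⟨fun v hv => ?_, le_normalizer⟩
    rw [mem_normalizer_iff]
    intro u
    constructor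
    · intro hu
      rw [hcomm v hv u hu, mul_inv_cancel_right]
      exact hu
    · intro hu
      have h1 := hcomm v hv _ hu
      have h2 : v * u * v⁻¹ * v = v * u := by group
      rw [h2] at h1
      have h3 : v * u * v⁻¹ = u := mul_left_cancel h1
      rw [h3] at hu
      exact hu
  intro χ
  obtain ⟨ψ₁, hψ₁⟩ := Blocks.Fong.exists_constituent (N := U₁) χ
  obtain ⟨ψ₂, hψ₂⟩ := Blocks.Fong.exists_constituent (N := U₂) χ
  exact (S4521.result 2 M hM U₁ U₂ hcomm hgen hZ χ ψ₁ ψ₂ hψ₁ hψ₂).2 ⟨h₁ ψ₁, h₂ ψ₂⟩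

theorem OneB.sup (hM : IsPModular 2 M) (U₁ U₂ : Subgroup G)
    (hcomm : ∀ u ∈ U₁, ∀ v ∈ U₂, u * v = v * u)
    (hZ : IsPGroup 2 ↥(U₁ ⊓ U₂)) (h₁ : OneB M U₁) (h₂ : OneB M U₂) : OneB M ↥(U₁ ⊔ U₂) := by
  refine OneB.sup_top hM (U₁.subgroupOf (U₁ ⊔ U₂)) (U₂.subgroupOf (U₁ ⊔ U₂)) ?_ ?_ ?_ ?_ ?_
  · intro u hu v hv
    exact Subtype.ext (hcomm u (mem_subgroupOf.1 hu) v (mem_subgroupOf.1 hv))
  · rw [← subgroupOf_sup le_sup_left le_sup_right, subgroupOf_self]
  · rintro ⟨⟨x, hx⟩, hx1, hx2⟩
    obtain ⟨k, hk⟩ := hZ ⟨x, mem_inf.2 ⟨mem_subgroupOf.1 hx1, mem_subgroupOf.1 hx2⟩⟩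
    refine ⟨k, ?_⟩
    apply Subtype.ext
    apply Subtype.ext
    have h3 := congrArg Subtype.val hk
    simpa using h3
  · exact OneB.iso (subgroupOfEquivOfLe le_sup_left).symm h₁
  · exact OneB.iso (subgroupOfEquivOfLe le_sup_right).symm h₂

/-- a product of components -/
theorem oneB_finset (hM : IsPModular 2 M) (s : Finset (Subgroup G))
    (hs : ∀ K ∈ s, IsComponent K) (hone : ∀ K ∈ s, OneB M K)
    (hZ : ∀ K ∈ s, IsPGroup 2 (center K)) : OneB M ↥(s.sup id) := by
  classical
  induction s using Finset.induction_on with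
  | empty =>
    refine OneB.pgroup hM ?_
    rw [Finset.sup_empty]
    rintro ⟨x, hx⟩
    exact ⟨0, Subtype.ext (by simpa using hx)⟩
  | insert K t hKt ih =>
    rw [Finset.sup_insert, id]
    have hcomm : ∀ u ∈ K, ∀ v ∈ t.sup id, u * v = v * u := by
      intro u hu v hv
      have h1 : t.sup id ≤ centralizer (K : Set G) := by
        rw [Finset.sup_le_iff]
        intro L hL
        refine SignalizersComponents.Components.component_le_centralizer_of_ne
          (hs L (Finset.mem_insert_of_mem hL)) (hs K (Finset.mem_insert_self K t)) ?_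
        rintro rfl
        exact hKt hL
      exact mem_centralizer_iff.1 (h1 hv) u hu
    refine OneB.sup hM K (t.sup id) hcomm ?_ (hone K (Finset.mem_insert_self K t)) ?_
    · rintro ⟨x, hx1, hx2⟩
      have h2 : (⟨x, hx1⟩ : K) ∈ center K := by
        rw [mem_center_iff]
        intro g
        exact Subtype.ext (hcomm g g.2 x hx2)
      obtain ⟨k, hk⟩ := hZ K (Finset.mem_insert_self K t) ⟨_, h2⟩
      refine ⟨k, Subtype.ext ?_⟩
      have h3 := congrArg (fun y => ((y : center K) : K).1) hk
      simpa using h3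
    · exact ih (fun L hL => hs L (Finset.mem_insert_of_mem hL))
        (fun L hL => hone L (Finset.mem_insert_of_mem hL))
        (fun L hL => hZ L (Finset.mem_insert_of_mem hL))

/-- **the layer** -/
theorem oneB_layer (hM : IsPModular 2 M) (hone : ∀ K : Subgroup G, IsComponent K → OneB M K)
    (hZ : ∀ K : Subgroup G, IsComponent K → IsPGroup 2 (center K)) : OneB M ↥(layer G) := by
  classical
  have hfin : {K : Subgroup G | IsComponent K}.Finite := Set.toFinite _
  have e : hfin.toFinset.sup id = layer G := by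
    rw [layer, Finset.sup_id_eq_sSup, hfin.coe_toFinset]
  rw [← e]
  refine oneB_finset hM _ ?_ ?_ ?_
  · intro K hK
    exact hfin.mem_toFinset.1 hK
  · intro K hK
    exact hone K (hfin.mem_toFinset.1 hK)
  · intro K hK
    exact hZ K (hfin.mem_toFinset.1 hK)

/-- the central character of an inflated character -/
theorem centralChar_infl (N : Subgroup G) [N.Normal] (χ : G ⧸ N → ℂ) (x : G) :
    centralChar (χ ∘ (QuotientGroup.mk : G → G ⧸ N)) x =
      ((centralizer ({x} : Set G)).relIndex
        ((centralizer ({(QuotientGroup.mk x : G ⧸ N)} : Set (G ⧸ N))).comap (QuotientGroup.mk' N)) : ℂ) *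
        centralChar χ (QuotientGroup.mk x) := by
  set H := (centralizer ({(QuotientGroup.mk x : G ⧸ N)} : Set (G ⧸ N))).comap (QuotientGroup.mk' N) with hH
  have hle : centralizer ({x} : Set G) ≤ H := by
    intro g hg
    rw [hH, mem_comap, mem_centralizer_singleton_iff]
    have h1 := mem_centralizer_singleton_iff.1 hg
    have h2 := congrArg (QuotientGroup.mk' N) h1
    rw [map_mul, map_mul] at h2
    exact h2
  have h1 : (centralizer ({x} : Set G)).relIndex H * H.index = (centralizer ({x} : Set G)).index :=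
    relIndex_mul_index hle
  have h2 : H.index = (centralizer ({(QuotientGroup.mk x : G ⧸ N)} : Set (G ⧸ N))).index :=
    index_comap_of_surjective _ (QuotientGroup.mk'_surjective N)
  rw [Basic.centralChar_def, Basic.centralChar_def, ← h1, h2]
  push_cast
  rw [Function.comp_apply, Function.comp_apply, QuotientGroup.mk_one]
  ring

/-- **from a normal subgroup** -/
theorem OneB.of_normal_even (hM : IsPModular 2 M) (N : Subgroup G) [N.Normal] (h : OneB M N)
    (hev : ∀ x : G, ¬ 2 ∣ orderOf x → x ≠ 1 → 2 ∣ (centralizer ({x} : Set G)).relIndex N) :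
    OneB M G := by
  classical
  have : Fact (Nat.Prime 2) := ⟨Nat.prime_two⟩
  have hprime := Blocks.Local.isPrime_of_isPModular hM
  have := Fintype.ofFinite G
  have := Fintype.ofFinite N
  -- characters of the quotient
  have key : ∀ (χ : IrrCharacter (G ⧸ N)) (x : G), ¬ 2 ∣ orderOf x → x ≠ 1 →
      MemLocalIdeal M (centralChar ((χ : G ⧸ N → ℂ) ∘ (QuotientGroup.mk : G → G ⧸ N)) x) := by
    intro χ x hx hx1
    rw [centralChar_infl]
    set H := (centralizer ({(QuotientGroup.mk x : G ⧸ N)} : Set (G ⧸ N))).comap (QuotientGroup.mk' N)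
      with hH
    have hNH : N ≤ H := by
      intro n hn
      rw [hH, mem_comap, mem_centralizer_singleton_iff]
      have : (QuotientGroup.mk' N) n = 1 := (QuotientGroup.eq_one_iff n).2 hn
      rw [this, one_mul, mul_one]
    have hdvd : (centralizer ({x} : Set G)).relIndex N ∣ (centralizer ({x} : Set G)).relIndex H := by
      have hn : (N.subgroupOf H).Normal := inferInstance
      set C := (centralizer ({x} : Set G)).subgroupOf H with hC
      have e1 : C.relIndex (N.subgroupOf H) = (centralizer ({x} : Set G)).relIndex N :=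
        relIndex_subgroupOf hNH
      have e2 : C.index = (centralizer ({x} : Set G)).relIndex H := rfl
      rw [← e1, ← e2]
      have h2 : (C ⊓ N.subgroupOf H).relIndex (N.subgroupOf H) * (N.subgroupOf H).index =
        (C ⊓ N.subgroupOf H).index := relIndex_mul_index inf_le_right
      have h3 : (C ⊓ N.subgroupOf H).relIndex C * C.index = (C ⊓ N.subgroupOf H).index :=
        relIndex_mul_index inf_le_left
      rw [inf_relIndex_right] at h2
      rw [inf_relIndex_left] at h3
      obtain ⟨c, hc⟩ := relIndex_dvd_index_of_normal (N.subgroupOf H) C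
      have h4 : (N.subgroupOf H).relIndex C ≠ 0 := index_ne_zero_of_finite
      refine ⟨c, ?_⟩
      apply Nat.eq_of_mul_eq_mul_left (Nat.pos_of_ne_zero h4)
      rw [h3, ← h2, hc]
      ring
    obtain ⟨c, hc⟩ := (hev x hx hx1).trans hdvd
    rw [hc]
    push_cast
    rw [mul_assoc]
    have h20 : ((2 : ℕ) : ℂ) = 2 := by norm_num
    rw [← h20]
    refine memLocalIdeal_mul_right hM (memLocalIdeal_prime hM) (memLocalRing_mul hM
      (memLocalRing_natCast hM c) ?_)
    exact memLocalRing_of_isIntegral hM (Blocks.Central.isIntegral_centralChar χ.2 _)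
  intro χ
  -- the block of `χ` contains a character of the quotient
  obtain ⟨θ, hθ⟩ := Blocks.Fong.exists_constituent (N := N) χ
  obtain ⟨ψ, hψ, hψ1⟩ := S4432.result 2 M hM N (blockOf M (χ : G → ℂ)) ⟨χ, rfl⟩
    (principalBlock M N) ⟨triv N, rfl⟩ ⟨χ, Blocks.Basic.sameBlock_refl _, θ, h θ, hθ⟩ (triv N)
    (h (triv N))
  have hsum : ∑ n : N, (ψ : G → ℂ) n ≠ 0 := by
    intro h0
    apply hψ1
    rw [classInner_def]
    simp only [show ((triv N : IrrCharacter N) : N → ℂ) = fun _ => 1 from rfl, map_one, mul_one]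
    rw [h0, mul_zero]
  obtain ⟨ψ', hψ'⟩ := Blocks.Deflate.exists_deflation N (ψ : G → ℂ) ψ.2 hsum
  have h1 : SameBlock M (χ : G → ℂ) (ψ : G → ℂ) := hψ
  refine Blocks.Basic.sameBlock_trans ?_ (Blocks.Basic.sameBlock_symm h1)
  refine Blocks.PRegular.sameBlock_of_isPRegular hM (triv G).2 ψ.2 fun g hg => ?_
  by_cases hg1 : g = 1
  · rw [hg1, centralChar_one ψ.2, centralChar_one (Blocks.Basic.isIrrCharacter_one), sub_self]
    simpa using memLocalIdeal_sub hM (memLocalIdeal_prime hM) (memLocalIdeal_prime hM)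
  · refine memLocalIdeal_sub hM ?_ ?_
    · exact key (triv (G ⧸ N)) g hg hg1
    · rw [hψ']
      exact key ψ' g hg hg1

end

end Cfsg.Agent.H657.OneBlk
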